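import Cfsg.Agent.H519.TDU.Core
import Cfsg.Agent.H727.TC.Row3
import Cfsg.Agent.H588.TW.Defs

/-!
# The last step of line B of `³D₄(q)` for S2452 (helper727)

* `zfin` : `S(x) = 1`, `S(y) = -1`, all characters except `1`, `S` and one more vanish at `x` or at `y`: every `g ≠ 1` is in
  `x^G y^G`.
* `t52_of_zfin` : the row.
-/

set_option autoImplicit false

open scoped ComplexConjugate
open Cfsg Subgroup

namespace Cfsg.Agent.H727.TW

open Cfsg.Agent.Characters Cfsg.Agent.Characters.Core Cfsg.Agent.H519.TDU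

universe u

variable {G : Type u} [Group G]

/-- **Two characters and a third one.** -/
theorem zfin [Finite G] [IsSimpleGroup G] {x y : G} (hxy : ¬ IsConj x y) (S B : IrrCharacter G)
    (hS : (S : G → ℂ) ≠ 1) (hSx : (S : G → ℂ) x = 1) (hSy : (S : G → ℂ) y = -1)
    (h : ∀ χ : IrrCharacter G, (χ : G → ℂ) x = 0 ∨ (χ : G → ℂ) y = 0 ∨ (χ : G → ℂ) = 1 ∨ χ = S ∨ χ = B) {g : G}
    (hg : g ≠ 1) : ∃ u v : G, g = (u * x * u⁻¹) * (v * y * v⁻¹) := by
  classical
  have := Fintype.ofFinite G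
  have hfin := finite_irr (G := G)
  have : Fintype (IrrCharacter G) := Fintype.ofFinite _
  have hreal : conj ((S : G → ℂ) x) = (S : G → ℂ) x := by rw [hSx, map_one]
  have key : (B : G → ℂ) x = 0 ∨ (B : G → ℂ) y = 0 ∨ (B : G → ℂ) = 1 ∨ B = S := by
    by_contra hcon
    push Not at hcon
    obtain ⟨hBx, hBy, hB1, hBS⟩ := hcon
    obtain ⟨I, hI⟩ : ∃ I : IrrCharacter G, I = ⟨1, isIrr_one⟩ := ⟨_, rfl⟩
    have hI1 : ∀ k : G, (I : G → ℂ) k = 1 := fun k => by rw [hI]; rfl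
    have hIS : I ≠ S := by
      rintro rfl
      exact hS (by rw [hI])
    have hIB : I ≠ B := by
      rintro rfl
      exact hB1 (by rw [hI])
    have h1 := col_zero hxy
    rw [← Finset.sum_subset (Finset.subset_univ ({I, S, B} : Finset (IrrCharacter G)))] at h1
    · rw [Finset.sum_insert (by simp [hIS, hIB]), Finset.sum_pair (Ne.symm hBS), hI1, hI1, hSx, hSy, map_one, map_neg,
        map_one, one_mul, one_mul] at h1
      have h2 : (B : G → ℂ) x * conj ((B : G → ℂ) y) = 0 := by linear_combination h1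
      rcases mul_eq_zero.1 h2 with h3 | h3
      · exact hBx h3
      · exact hBy ((map_eq_zero _).1 h3)
    · intro χ _ hχ
      rw [Finset.mem_insert, Finset.mem_insert, Finset.mem_singleton] at hχ
      push Not at hχ
      rcases h χ with h2 | h2 | h2 | h2 | h2
      · rw [h2, zero_mul]
      · rw [h2, map_zero, mul_zero]
      · exact absurd (Subtype.ext (by rw [h2, hI])) hχ.1
      · exact absurd h2 hχ.2.1
      · exact absurd h2 hχ.2.2
  refine prod_of_two hxy S hS hreal (fun χ => ?_) hg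
  rcases h χ with h2 | h2 | h2 | h2 | rfl
  · exact Or.inl h2
  · exact Or.inr (Or.inl h2)
  · exact Or.inr (Or.inr (Or.inl h2))
  · exact Or.inr (Or.inr (Or.inr h2))
  · exact key

/-- **The row.** -/
theorem t52_of_zfin [Finite G] {p : ℕ} (hp : p.Prime) (hG : IsLieTypeChar p G) {x y : G} (hx : (orderOf x).Prime)
    {s₁ s₂ : ℕ} (h₁ : s₁.Prime) (h₂ : s₂.Prime) (h₁₂ : s₁ ≠ s₂) (hy : orderOf y = s₁ * s₂)
    (hcx : ¬ p ∣ Nat.card (centralizer ({x} : Set G))) (hpy : ¬ p ∣ orderOf y) (S B : IrrCharacter G)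
    (hS : (S : G → ℂ) ≠ 1) (hSx : (S : G → ℂ) x = 1) (hSy : (S : G → ℂ) y = -1)
    (h : ∀ χ : IrrCharacter G, (χ : G → ℂ) x = 0 ∨ (χ : G → ℂ) y = 0 ∨ (χ : G → ℂ) = 1 ∨ χ = S ∨ χ = B) :
    H588.TW.T52 G := by
  have : Fact p.Prime := ⟨hp⟩
  have : IsSimpleGroup G := H400.LieSimple.isSimple_of_lie hG
  have hxy : ¬ IsConj x y := by
    intro hc
    obtain ⟨c, hc⟩ := isConj_iff.1 hc
    have h3 : orderOf y = orderOf x := by
      rw [← hc, ← MulAut.conj_apply]
      exact MulEquiv.orderOf_eq (MulAut.conj c) x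
    rw [← h3, hy] at hx
    exact Nat.not_prime_mul h₁.one_lt.ne' h₂.one_lt.ne' hx
  have hx1 : x ≠ 1 := by
    rintro rfl
    rw [orderOf_one] at hx
    exact Nat.not_prime_one hx
  have hy1 : y ≠ 1 := by
    rintro rfl
    rw [orderOf_one] at hy
    exact Nat.not_prime_one (by
      have h4 := Nat.eq_one_of_mul_eq_one_right hy.symm
      rw [← h4]
      exact h₁)
  have h2 : ∀ g : G, g ≠ 1 → ∃ u v : G, g = (u * x * u⁻¹) * (v * y * v⁻¹) := fun g hg =>
    zfin hxy S B hS hSx hSy h hg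
  exact ⟨x, y, hx, Or.inr ⟨s₁, s₂, h₁, h₂, h₁₂, hy⟩, h2, H727.TC.cube_of_gow hp hG hcx hx1 hpy hy1 h2⟩

end Cfsg.Agent.H727.TW
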